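import Cfsg.Agent.H678.FactACore
import Cfsg.Agent.H675.FactAPSL
import Cfsg.Agent.H676.OrderClassical
import Cfsg.Agent.H680.GoodExc

/-!
# FACT A

`famTable` : the square of the order of a Sylow `p`-subgroup of a simple group of Lie type `S` is less than `|S|`,
for every prime `p`. Together with `good_card` this is FACT A for a known nonabelian simple group.
-/

set_option autoImplicit false

namespace Cfsg.Agent.H678

open Cfsg Cfsg.Agent.OrdDiv

/-- The families of Lie type. -/
theorem famTable : FamTable where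
  psl _ _ _ _ hn hn2 := H675.psl hn hn2
  psp _ _ _ _ hm hm2 := H676.OrderClassical.psp hm hm2
  psu _ _ _ _ _ hF hn hn2 := H675.psu hF hn hn2
  oodd _ _ _ _ hm ho := H676.OrderClassical.oodd hm ho
  oplus _ _ _ _ hm := H676.OrderClassical.oplus hm
  ominus _ _ _ _ _ _ hm hab := H676.OrderClassical.ominus hm hab
  g2 := H680.GoodExc.g2
  f4 := H680.GoodExc.f4
  e6 := H680.GoodExc.e6
  e7 := H680.GoodExc.e7
  e8 := H680.GoodExc.e8
  te6 := H680.GoodExc.te6
  td4 := H680.GoodExc.td4
  sz := H680.GoodExc.sz
  ree := H680.GoodExc.ree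
  tf4 := H680.GoodExc.tf4

end Cfsg.Agent.H678
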