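import Cfsg.Agent.S0000
import Cfsg.Agent.OrdDiv.Table
import Cfsg.Agent.H678.FactA

/-!
# FACT A from the classification
-/

set_option autoImplicit false

namespace Cfsg.Agent.H678

open Cfsg Cfsg.Agent.OrdDiv

universe u

/-- **FACT A**: in a finite nonabelian simple group `S` the square of the order of a Sylow `p`-subgroup is less
than `|S|`, for every prime `p`. -/
theorem factA {S : Type u} [Group S] [Finite S] [IsSimpleGroup S] (hna : ¬ ∀ a b : S, a * b = b * a) :
    Good (Nat.card S) :=
  good_card OrdDiv.table famTable S0000.result hna

end Cfsg.Agent.H678
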